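import Mathlib.Dynamics.Newton
import Groth.Agent.Flat2C.AffineThickening
import Groth.Agent.Fdesc.LocGen

/-!
# Unique lifting of `n`-th roots of units along a nil-thickening

`Z ⟶ X` a surjective closed immersion, `n` invertible: over every open `W` of `X`, an `n`-th root on `i ⁻¹ᵁ W` of
(the restriction of) a unit `u` of `Γ(X, W)` lifts uniquely to an `n`-th root of `u` over `W`.
-/

set_option autoImplicit false
universe u

open CategoryTheory AlgebraicGeometry TopologicalSpace Opposite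

namespace Groth.Agent.Old.H11.NthRoot

section Ring

theorem eq_of_pow_eq {A : Type*} [CommRing A] {x y : A} {n : ℕ} (hn : IsUnit (n : A)) (hx : IsUnit x)
    (hxy : IsNilpotent (x - y)) (h : x ^ n = y ^ n) : x = y := by
  let P : Polynomial A := Polynomial.X ^ n - Polynomial.C (x ^ n)
  have hP : ∀ z : A, Polynomial.aeval z P = z ^ n - x ^ n := fun z ↦ by simp [P]
  have hP' : Polynomial.aeval x (Polynomial.derivative P) = n * x ^ (n - 1) := by
    rw [Polynomial.derivative_sub, Polynomial.derivative_X_pow, Polynomial.derivative_C]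
    simp
  have h1 := Polynomial.existsUnique_nilpotent_sub_and_aeval_eq_zero (P := P) (x := x)
    (by rw [hP, sub_self]; exact IsNilpotent.zero) (by rw [hP']; exact hn.mul (hx.pow _))
  exact h1.unique ⟨by rw [sub_self]; exact IsNilpotent.zero, by rw [hP, sub_self]⟩
    ⟨hxy, by rw [hP, h, sub_self]⟩

theorem isUnit_of_nil {A B : Type*} [CommRing A] [CommRing B] (f : A →+* B) (hf : Function.Surjective f)
    (hnil : ∀ a, f a = 0 → IsNilpotent a) {a : A} (ha : IsUnit (f a)) : IsUnit a := by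
  obtain ⟨c, hc⟩ := hf (↑(ha.unit⁻¹) : B)
  have h1 : f (a * c - 1) = 0 := by
    rw [map_sub, map_mul, hc, map_one, IsUnit.mul_val_inv, sub_self]
  have h2 : IsUnit (a * c) := by
    have := (hnil _ h1).isUnit_one_add
    rwa [add_sub_cancel] at this
  exact isUnit_of_mul_isUnit_left h2

theorem exists_root {A B : Type*} [CommRing A] [CommRing B] (f : A →+* B) (hf : Function.Surjective f)
    (hnil : ∀ a, f a = 0 → IsNilpotent a) {n : ℕ} (hn : IsUnit (n : B)) {b : B} {u : A} (hb : IsUnit b)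
    (hu : b ^ n = f u) : ∃ a : A, f a = b ∧ a ^ n = u := by
  obtain ⟨a₀, ha₀⟩ := hf b
  have hnA : IsUnit (n : A) := isUnit_of_nil f hf hnil (by rwa [map_natCast])
  have ha₀u : IsUnit a₀ := isUnit_of_nil f hf hnil (by rwa [ha₀])
  let P : Polynomial A := Polynomial.X ^ n - Polynomial.C u
  have hP : ∀ z : A, Polynomial.aeval z P = z ^ n - u := fun z ↦ by simp [P]
  have hP' : Polynomial.aeval a₀ (Polynomial.derivative P) = n * a₀ ^ (n - 1) := by
    rw [Polynomial.derivative_sub, Polynomial.derivative_X_pow, Polynomial.derivative_C]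
    simp
  obtain ⟨r, ⟨hr1, hr2⟩, -⟩ := Polynomial.existsUnique_nilpotent_sub_and_aeval_eq_zero (P := P) (x := a₀)
    (by rw [hP]; exact hnil _ (by rw [map_sub, map_pow, ha₀, hu, sub_self]))
    (by rw [hP']; exact hnA.mul (ha₀u.pow _))
  rw [hP, sub_eq_zero] at hr2
  refine ⟨r, ?_, hr2⟩
  refine (eq_of_pow_eq hn hb ?_ ?_).symm
  · have := hr1.map f
    rwa [map_sub, ha₀] at this
  · rw [hu, ← map_pow, hr2]

end Ring

section Scheme

open Groth.Agent.Fdesc.LocGen Groth.Agent.Flat2C.AffineThickening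

variable {Z X : Scheme.{u}} (i : Z ⟶ X)

/-- `i.app` as a ring homomorphism. -/
noncomputable def ap (W : X.Opens) : Γ(X, W) →+* Γ(Z, i ⁻¹ᵁ W) := (i.app W).hom

theorem ap_ores {U V : X.Opens} (h : V ≤ U) (a : Γ(X, U)) :
    ap i V (ores h a) = ores (i.preimage_mono h) (ap i U a) := by
  have h1 := i.naturality (homOfLE h).op
  exact congr($(h1) a)

variable {i}

theorem basis_cover {W : X.Opens} : W ≤ ⨆ V : {V : X.Opens // IsAffineOpen V ∧ V ≤ W}, V.1 := by
  intro x hx
  obtain ⟨V, hV, hxV, hVW⟩ := exists_isAffineOpen_mem_and_subset (x := x) (U := W) hx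
  exact Opens.mem_iSup.2 ⟨⟨V, hV, hVW⟩, hxV⟩

variable [IsClosedImmersion i] [Surjective i]

omit [Surjective i] in
theorem ap_surjective {W : X.Opens} (hW : IsAffineOpen W) : Function.Surjective (ap i W) :=
  i.app_surjective W hW

omit [IsClosedImmersion i] in
theorem ap_nil {W : X.Opens} (hW : IsAffineOpen W) (a : Γ(X, W)) (ha : ap i W a = 0) : IsNilpotent a :=
  isNilpotent_of_app_eq_zero i hW.isCompact a ha

theorem isUnit_of_ap {W : X.Opens} {a : Γ(X, W)} (ha : IsUnit (ap i W a)) : IsUnit a := by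
  have key : ∀ V : {V : X.Opens // IsAffineOpen V ∧ V ≤ W}, IsUnit (ores V.2.2 a) := by
    intro V
    refine isUnit_of_nil (ap i V.1) (ap_surjective V.2.1) (ap_nil V.2.1) ?_
    rw [ap_ores]
    exact ha.map _
  choose b hb using fun V ↦ (key V).exists_right_inv
  obtain ⟨c, hc⟩ := ores_glue (V := W) (fun V : {V : X.Opens // IsAffineOpen V ∧ V ≤ W} ↦ V.1)
    (fun V ↦ V.2.2) basis_cover b (by
      intro V V'
      have h1 := congrArg (ores (inf_le_left : V.1 ⊓ V'.1 ≤ V.1)) (hb V)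
      have h2 := congrArg (ores (inf_le_right : V.1 ⊓ V'.1 ≤ V'.1)) (hb V')
      rw [map_mul, ores_ores, map_one] at h1 h2
      have h3 : IsUnit (ores (inf_le_left.trans V.2.2 : V.1 ⊓ V'.1 ≤ W) a) := IsUnit.of_mul_eq_one _ h1
      exact h3.mul_left_cancel (h1.trans h2.symm))
  refine IsUnit.of_mul_eq_one c ?_
  refine ores_ext (fun V : {V : X.Opens // IsAffineOpen V ∧ V ≤ W} ↦ V.1) (fun V ↦ V.2.2) basis_cover ?_
  intro V
  rw [map_mul, hc, hb, map_one]

/-- uniqueness of roots -/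
theorem root_unique {n : ℕ} {W : X.Opens} (hn : IsUnit (n : Γ(Z, i ⁻¹ᵁ W))) {a b : Γ(X, W)}
    (ha : IsUnit a) (hab : ap i W a = ap i W b) (h : a ^ n = b ^ n) : a = b := by
  have hn' : IsUnit (n : Γ(X, W)) := isUnit_of_ap (i := i) (by rwa [map_natCast])
  refine ores_ext (fun V : {V : X.Opens // IsAffineOpen V ∧ V ≤ W} ↦ V.1) (fun V ↦ V.2.2) basis_cover ?_
  intro V
  refine eq_of_pow_eq (n := n) ?_ (ha.map _) ?_ ?_
  · have := hn'.map (ores V.2.2)
    rwa [map_natCast] at this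
  · refine ap_nil (i := i) V.2.1 _ ?_
    rw [map_sub, ap_ores, ap_ores, hab, sub_self]
  · rw [← map_pow, h, map_pow]

/-- existence of roots -/
theorem root_exists {n : ℕ} {W : X.Opens} (hn : IsUnit (n : Γ(Z, i ⁻¹ᵁ W))) {b : Γ(Z, i ⁻¹ᵁ W)}
    (hb : IsUnit b) {u : Γ(X, W)} (hu : b ^ n = ap i W u) : ∃ a : Γ(X, W), ap i W a = b ∧ a ^ n = u := by
  have key : ∀ V : {V : X.Opens // IsAffineOpen V ∧ V ≤ W}, ∃ a : Γ(X, V.1),
      ap i V.1 a = ores (i.preimage_mono V.2.2) b ∧ a ^ n = ores V.2.2 u := by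
    intro V
    refine exists_root (ap i V.1) (ap_surjective V.2.1) (ap_nil V.2.1) ?_ (hb.map _) ?_
    · have := hn.map (ores (i.preimage_mono V.2.2))
      rwa [map_natCast] at this
    · rw [← map_pow, hu, ap_ores]
  choose a ha ha' using key
  have hau : ∀ V, IsUnit (a V) := fun V ↦ isUnit_of_ap (i := i) (by rw [ha]; exact hb.map _)
  obtain ⟨c, hc⟩ := ores_glue (V := W) (fun V : {V : X.Opens // IsAffineOpen V ∧ V ≤ W} ↦ V.1)
    (fun V ↦ V.2.2) basis_cover a (by
      intro V V'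
      refine root_unique (i := i) (n := n) ?_ ((hau V).map _) ?_ ?_
      · have := hn.map (ores (i.preimage_mono ((inf_le_left : V.1 ⊓ V'.1 ≤ V.1).trans V.2.2)))
        rwa [map_natCast] at this
      · rw [ap_ores, ap_ores, ha, ha, ores_ores, ores_ores]
      · rw [← map_pow, ← map_pow, ha', ha', ores_ores, ores_ores])
  refine ⟨c, ?_, ?_⟩
  · refine ores_ext (fun V : {V : X.Opens // IsAffineOpen V ∧ V ≤ W} ↦ i ⁻¹ᵁ V.1)
      (fun V ↦ i.preimage_mono V.2.2) ?_ ?_
    · intro x hx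
      obtain ⟨V, hV⟩ := Opens.mem_iSup.1 (basis_cover (W := W) (x := i x) hx)
      exact Opens.mem_iSup.2 ⟨V, hV⟩
    · intro V
      rw [← ap_ores i V.2.2, hc, ha]
  · refine ores_ext (fun V : {V : X.Opens // IsAffineOpen V ∧ V ≤ W} ↦ V.1) (fun V ↦ V.2.2) basis_cover ?_
    intro V
    rw [map_pow, hc, ha']

end Scheme

end Groth.Agent.Old.H11.NthRoot
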