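import Groth.Agent.Old.H11.NthRoot
import Groth.Agent.Ega3B.LimInv
import Groth.Agent.Flat2H.FamDict

/-!
# Lifting `n`-torsion invertible modules along thickenings

`exists_lift`: for a surjective closed immersion `i : X ⟶ X'` and `n` invertible on `X`, every invertible module on `X`
with trivial `n`-th power is the pullback of an invertible module on `X'` with trivial `n`-th power.
-/

set_option autoImplicit false
universe u

open CategoryTheory AlgebraicGeometry TopologicalSpace Opposite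

namespace Groth.Agent.Old.H11.PicTors

open Groth.Agent.Fdesc.LocGen Groth.Agent.Old.H11.NthRoot Groth.Agent.Flat2H.FamDict Groth.Agent.Ega3B.LimInv

variable {X X' : Scheme.{u}} (i : X ⟶ X') [IsClosedImmersion i] [Surjective i]

/-- On a thickening, an invertible module is trivial on preimages of affine opens around every point. -/
theorem exists_affine_gen {L : X.Modules} (hL : PicF.IsInvertible L) (y : X') :
    ∃ (V : X'.Opens) (e : Γ(L, i ⁻¹ᵁ V)), y ∈ V ∧ IsAffineOpen V ∧ IsGen e := by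
  rw [isInvertible_iff] at hL
  obtain ⟨x, rfl⟩ := i.surjective y
  obtain ⟨U, e, hxU, he⟩ := hL x
  obtain ⟨V', hV', hV'U⟩ := i.isClosedEmbedding.isInducing.isOpen_iff.1 U.isOpen
  obtain ⟨V, hV, hxV, hVV'⟩ := exists_isAffineOpen_mem_and_subset (x := i x) (U := ⟨V', hV'⟩) (by
    change i x ∈ V'
    have : x ∈ i ⁻¹' V' := by rw [hV'U]; exact hxU
    exact this)
  have hle : i ⁻¹ᵁ V ≤ U := by
    intro z hz
    have : z ∈ i ⁻¹' V' := hVV' hz
    rw [hV'U] at this
    exact this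
  exact ⟨V, res L hle e, hxV, hV, he.res hle⟩

theorem aux_ring {R : Type*} [CommRing R] {a x y c : R} (h1 : x * c = 1) (h2 : y = a * x) : a = y * c := by
  rw [h2, mul_assoc, h1, mul_one]

theorem pow_rel {Y : Scheme.{u}} {L : Y.Modules} {U V W : Y.Opens} (hU : W ≤ U) (hV : W ≤ V) {e : Γ(L, U)}
    {f : Γ(L, V)} {a : Γ(Y, W)} (h : res L hU e = a • res L hV f) (n : ℕ) :
    res (CohB1.tensorPow L n) hU (pow e n) = a ^ n • res (CohB1.tensorPow L n) hV (pow f n) := by
  rw [res_pow, h, Groth.Agent.Fdesc.LocGen.smul_pow, res_pow]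

theorem pull_rel {Y Z : Scheme.{u}} (p : Z ⟶ Y) {M : Y.Modules} {U V W : Y.Opens} (hU : W ≤ U) (hV : W ≤ V)
    {e : Γ(M, U)} {f : Γ(M, V)} {a : Γ(Y, W)} (h : res M hU e = a • res M hV f) {P : Z.Opens}
    (hP : P ≤ p ⁻¹ᵁ W) (hPU : P ≤ p ⁻¹ᵁ U) (hPV : P ≤ p ⁻¹ᵁ V) :
    res ((Scheme.Modules.pullback p).obj M) hPU (pullSec p e) =
      ores hP (ap p W a) • res ((Scheme.Modules.pullback p).obj M) hPV (pullSec p f) := by
  have h1 := congrArg (fun s ↦ res ((Scheme.Modules.pullback p).obj M) hP (pullSec p s)) h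
  rw [pullSec_smul, ← res_pullSec, ← res_pullSec, res_smul, res_res, res_res] at h1
  exact h1

theorem res_rel {Y : Scheme.{u}} {L : Y.Modules} {U V W : Y.Opens} (hU : W ≤ U) (hV : W ≤ V) {e : Γ(L, U)}
    {f : Γ(L, V)} {a : Γ(Y, W)} (h : res L hU e = a • res L hV f) {P : Y.Opens} (hP : P ≤ W) :
    res L (hP.trans hU) e = ores hP a • res L (hP.trans hV) f := by
  have h1 := congrArg (res L hP) h
  rw [res_smul, res_res, res_res] at h1
  exact h1

theorem exists_lift (n : ℕ) (hu : IsUnit (n : Γ(X, ⊤))) (L : X.Modules) (hL : PicF.IsInvertible L)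
    (φ : CohB1.tensorPow L n ≅ Coh.structureModule X) :
    ∃ M : X'.Modules, PicF.IsInvertible M ∧ Nonempty (CohB1.tensorPow M n ≅ Coh.structureModule X') ∧
      Nonempty ((Scheme.Modules.pullback i).obj M ≅ L) := by
  have hnU : ∀ W : X.Opens, IsUnit (n : Γ(X, W)) := fun W ↦ by
    have := hu.map (ores (le_top : W ≤ ⊤))
    rwa [map_natCast] at this
  choose V e hyV hV he using exists_affine_gen i hL
  obtain ⟨g, hg⟩ := exists_trans (L := L) (fun y ↦ i ⁻¹ᵁ V y) e he
  have hT : Trivs L (fun y ↦ i ⁻¹ᵁ V y) g := ⟨fun x ↦ ⟨i x, hyV (i x)⟩, e, he, hg⟩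
  have hgu := hT.isUnit
  -- the trivialisation of the power
  have hE : ∀ y, IsGen (φ.hom.app _ (pow (e y) n)) := fun y ↦ ((he y).pow n).app φ.hom
  choose h hhu hh using fun y ↦ (isGen_one _).exists_unit (hE y)
  have hrel : ∀ y z, ores (inf_le_left : i ⁻¹ᵁ V y ⊓ i ⁻¹ᵁ V z ≤ i ⁻¹ᵁ V y) (h y) =
      g y z ^ n * ores (inf_le_right : i ⁻¹ᵁ V y ⊓ i ⁻¹ᵁ V z ≤ i ⁻¹ᵁ V z) (h z) := by
    intro y z
    have h1 := congrArg (φ.hom.app (i ⁻¹ᵁ V y ⊓ i ⁻¹ᵁ V z)) (pow_rel _ _ (hg y z) n)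
    rw [Scheme.Modules.Hom.app_smul, app_res, app_res, hh, hh, res_smul, res_smul, res_one, res_one,
      smul_smul] at h1
    exact (isGen_one _).ext h1
  -- lift the units
  choose h' hh' using fun y ↦ ap_surjective (i := i) (hV y) (h y)
  have hhu' : ∀ y, IsUnit (h' y) := fun y ↦ isUnit_of_ap (i := i) (by rw [hh']; exact hhu y)
  -- lift the cocycle
  have hroot : ∀ y z, ∃ t : Γ(X', V y ⊓ V z), ap i (V y ⊓ V z) t = g y z ∧
      ores (inf_le_left : V y ⊓ V z ≤ V y) (h' y) = t ^ n * ores (inf_le_right : V y ⊓ V z ≤ V z) (h' z) := by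
    intro y z
    have hz : IsUnit (ores (inf_le_right : V y ⊓ V z ≤ V z) (h' z)) := (hhu' z).map _
    obtain ⟨c, hc⟩ := hz.exists_right_inv
    obtain ⟨t, ht, ht'⟩ := root_exists (i := i) (n := n) (W := V y ⊓ V z) (hnU _) (b := g y z) (hgu y z)
      (u := ores (inf_le_left : V y ⊓ V z ≤ V y) (h' y) * c) (by
        have h1 := congrArg (ap i (V y ⊓ V z)) hc
        rw [map_mul, ap_ores, hh', map_one] at h1
        rw [map_mul, ap_ores, hh']
        have h2 := hrel y z
        exact aux_ring h1 h2)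
    refine ⟨t, ht, ?_⟩
    rw [ht', mul_assoc, mul_comm c, hc, mul_one]
  choose t ht ht' using hroot
  have htu : ∀ y z, IsUnit (t y z) := fun y z ↦ isUnit_of_ap (i := i) (by rw [ht]; exact hgu y z)
  have htself : ∀ y, t y y = 1 := by
    intro y
    refine (root_unique (i := i) (n := n) (hnU _) isUnit_one ?_ ?_).symm
    · rw [ht]
      exact (map_one (ap i (V y ⊓ V y))).trans (hT.self y).symm
    · have h1 := ht' y y
      have hz : IsUnit (ores (inf_le_right : V y ⊓ V y ≤ V y) (h' y)) := (hhu' y).map _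
      rw [one_pow]
      exact hz.mul_right_cancel (by rw [one_mul]; exact h1)
  have hcoc : ∀ j k l, ores (V := V j ⊓ (V k ⊓ V l)) (inf_le_inf_left _ inf_le_left) (t j k) *
      ores (V := V j ⊓ (V k ⊓ V l)) inf_le_right (t k l) =
      ores (V := V j ⊓ (V k ⊓ V l)) (inf_le_inf_left _ inf_le_right) (t j l) := by
    intro j k l
    have hj : V j ⊓ (V k ⊓ V l) ≤ V j := inf_le_left
    have hk : V j ⊓ (V k ⊓ V l) ≤ V k := inf_le_right.trans inf_le_left
    have hl : V j ⊓ (V k ⊓ V l) ≤ V l := inf_le_right.trans inf_le_right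
    have hle : ∀ {W W' : X'.Opens}, W ≤ W' → i ⁻¹ᵁ W ≤ i ⁻¹ᵁ W' := fun h ↦ i.preimage_mono h
    refine root_unique (i := i) (n := n) (hnU _) (((htu j k).map _).mul ((htu k l).map _)) ?_ ?_
    · rw [map_mul, ap_ores, ap_ores, ap_ores, ht, ht, ht]
      exact hT.cocycle j k l (hle hj) (hle hk) (hle hl)
    · have hz : IsUnit (ores hl (h' l)) := (hhu' l).map _
      refine hz.mul_right_cancel ?_
      have h1 := congrArg (ores (le_inf hj hk)) (ht' j k)
      have h2 := congrArg (ores (le_inf hk hl)) (ht' k l)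
      have h3 := congrArg (ores (le_inf hj hl)) (ht' j l)
      simp only [map_mul, map_pow, ores_ores] at h1 h2 h3
      rw [mul_pow, mul_assoc, ← h2, ← h1, h3]
  obtain ⟨M, m, hm, hmt⟩ := Groth.Agent.Flat2H.InvGlue.exists_module_of_cocycle V t htself hcoc
  have hm' : ∀ k, IsGen (m k) := hm
  have hmt' : ∀ k l, res M (inf_le_left : V k ⊓ V l ≤ V k) (m k) =
      t k l • res M (inf_le_right : V k ⊓ V l ≤ V l) (m l) := hmt
  refine ⟨M, ?_, ?_, ?_⟩
  · rw [isInvertible_iff]
    intro y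
    exact ⟨V y, m y, hyV y, hm' y⟩
  · obtain ⟨ψ, -⟩ := Groth.Agent.Ega2.CocycleIso.exists_iso (M := CohB1.tensorPow M n)
      (N := Coh.structureModule X') (U := V) (m := fun k ↦ pow (m k) n)
      (n := fun k ↦ h' k • one (V k)) (fun y ↦ ⟨y, hyV y⟩) (fun k ↦ (hm' k).pow n)
      (fun k ↦ (isGen_one _).unit_smul (hhu' k)) (by
        intro j k P hj hk a ha
        have h1 := res_rel _ _ (pow_rel _ _ (hmt' j k) n) (le_inf hj hk : P ≤ V j ⊓ V k)
        rw [map_pow] at h1
        have h2 := (((hm' k).pow n).res hk).ext (ha.symm.trans h1)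
        have h3 := congrArg (ores (le_inf hj hk : P ≤ V j ⊓ V k)) (ht' j k)
        rw [map_mul, map_pow, ores_ores, ores_ores] at h3
        rw [res_smul, res_smul, res_one, res_one, smul_smul, h2, h3])
    exact ⟨ψ⟩
  · obtain ⟨ψ, -⟩ := Groth.Agent.Ega2.CocycleIso.exists_iso (M := L) (N := (Scheme.Modules.pullback i).obj M)
      (U := fun y ↦ i ⁻¹ᵁ V y) (m := e) (n := fun k => pullSec i (m k)) (fun x ↦ ⟨i x, hyV (i x)⟩) he
      (fun k => (hm' k).pullSec i) (by
        intro k l P hk hl a ha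
        have h1 := congrArg (res L (le_inf hk hl : P ≤ i ⁻¹ᵁ V k ⊓ i ⁻¹ᵁ V l)) (hg k l)
        rw [res_smul, res_res, res_res, ha] at h1
        have h2 := ((he l).res hl).ext h1
        have h3 := pull_rel i _ _ (hmt' k l) (le_inf hk hl : P ≤ i ⁻¹ᵁ (V k ⊓ V l)) hk hl
        rw [ht] at h3
        rw [h2]
        exact h3)
    exact ⟨ψ.symm⟩

end Groth.Agent.Old.H11.PicTors
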